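import Cfsg.Agent.H569.P4.Opp

/-!
# S5210, (V): the parabolic `V` (helper569)
-/

set_option autoImplicit false
set_option linter.unusedSimpArgs false

namespace Cfsg.Agent.H569.P4

open Cfsg Cfsg.FusionSystem
open Cfsg.Agent.H756.PU (HypK Ess Inv Com NormAut TIAut AF)
open Cfsg.Agent.H776.P4

universe u

variable {K : Type u} [Field K] [StarRing K] {p n : ℕ}

/-! ### Restrictions -/

theorem exists_isRP {α : MulAut (PG K)} (h : ∀ g, (α g).r = 0 ↔ g.r = 0) : ∃ δ : MulAut (PV K), IsRP α δ := by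
  refine ⟨{ toFun := fun v => ⟨α v, (h _).2 v.2⟩
            invFun := fun v => ⟨α⁻¹ v, (h _).1 (by rw [MulAut.apply_inv_self]; exact v.2)⟩
            left_inv := fun v => Subtype.ext (by simp)
            right_inv := fun v => Subtype.ext (by simp)
            map_mul' := fun v w => Subtype.ext (by simp) }, fun v => rfl⟩

theorem isRP_tor {α : MulAut (PG K)} {s l : K} {τ : K ≃+* K} (h : IsTorP α s l τ) : ∃ δ : MulAut (PV K), IsRP α δ := by
  apply exists_isRP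
  intro g
  rw [h.r]
  constructor
  · intro h1
    rcases mul_eq_zero.1 h1 with h2 | h2
    · exact absurd h2 h.ns
    · exact (map_eq_zero_iff τ τ.injective).1 h2
  · intro h1
    rw [h1, map_zero, mul_zero]

section

variable {α : MulAut (PG K)} {δ : MulAut (PV K)} {s l : K} {τ : K ≃+* K}

theorem tor_a (h : IsTorP α s l τ) (hr : IsRP α δ) (v : PV K) : cA (δ v) = s * star s * l * τ (cA v) := by
  show ((δ v : PV K) : PG K).a = _
  rw [hr, h.a]; rfl

theorem tor_b (h : IsTorP α s l τ) (hr : IsRP α δ) (v : PV K) : cB (δ v) = s * l * τ (cB v) := by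
  show ((δ v : PV K) : PG K).b = _
  rw [hr, h.b]; rfl

theorem tor_c (h : IsTorP α s l τ) (hr : IsRP α δ) (v : PV K) : cC (δ v) = l * τ (cC v) := by
  show ((δ v : PV K) : PG K).c = _
  rw [hr, h.c]; rfl

theorem IsRP.inv (hr : IsRP α δ) : IsRP α⁻¹ δ⁻¹ := by
  intro e
  have h1 := hr (δ⁻¹ e)
  rw [MulAut.apply_inv_self] at h1
  rw [h1, MulAut.inv_apply_self]

end

/-- the diagonal elements -/
structure IsH (r : K) (γ : MulAut (PV K)) : Prop where
  a : ∀ v, cA (γ v) = r * star r * cA v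
  b : ∀ v, cB (γ v) = r * (star r)⁻¹ * cB v
  c : ∀ v, cC (γ v) = (r * star r)⁻¹ * cC v

theorem isH_of {r : K} {m m' : MulAut (PV K)} (h : IsN r m) (h' : IsN 1 m') : IsH r (m * m') where
  a v := by
    rw [MulAut.mul_apply, h.a, h'.c]
    simp
  b v := by
    rw [MulAut.mul_apply, h.b, h'.b]
    simp
  c v := by
    rw [MulAut.mul_apply, h.c, h'.a]
    simp

theorem isWV_of {m : MulAut (PV K)} (h : IsN 1 m) : IsWV m where
  a e := by
    show cA (m e) = cC e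
    rw [h.a]; simp
  b e := by
    show cB (m e) = - star (cB e)
    rw [h.b]; simp
  c e := by
    show cC (m e) = cA e
    rw [h.c]; simp

theorem IsWV.unique {m m' : MulAut (PV K)} (h : IsWV m) (h' : IsWV m') : m = m' :=
  aext (fun v => (h.a v).trans (h'.a v).symm) (fun v => (h.b v).trans (h'.b v).symm) (fun v => (h.c v).trans (h'.c v).symm)

theorem normAut_of_isH {r : K} (h0 : r ≠ 0) {m : MulAut (PV K)} (h : IsH r m) :
    NormAut (⊤ : Subgroup (PG K)) m := by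
  intro x hx
  have h1 : star r ≠ 0 := by rwa [Ne, star_eq_zero]
  obtain ⟨ρ, hρ⟩ := mem_U_iff.1 hx
  obtain ⟨x', hx'⟩ := exists_isU (r ^ 2 * ρ)
  have h2 : m * x = x' * m := by
    apply aext
    · intro v
      rw [MulAut.mul_apply, MulAut.mul_apply, h.a, hρ.a, hx'.a, h.a, h.b, h.c]
      simp only [star_mul', star_inv₀, star_star, star_pow]
      field_simp
    · intro v
      rw [MulAut.mul_apply, MulAut.mul_apply, h.b, hρ.b, hx'.b, h.b, h.c]
      field_simp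
    · intro v
      rw [MulAut.mul_apply, MulAut.mul_apply, h.c, hρ.c, hx'.c, h.c]
  rw [h2, mul_inv_cancel_right]
  exact mem_U_iff.2 ⟨_, hx'⟩

/-! ### The first stage -/

/-- the data of (V1), abstractly -/
structure Opp (Um : Subgroup (MulAut (PV K))) : Prop where
  sw : ∀ x ∈ autInducedBy ⊤ (PV K), x ≠ 1 → ∃ y ∈ Um,
        (∀ z, z ∈ Um ↔ (x * y * x) * z * (x * y * x)⁻¹ ∈ autInducedBy ⊤ (PV K)) ∧
        (∀ z, z ∈ autInducedBy ⊤ (PV K) ↔ (x * y * x) * z * (x * y * x)⁻¹ ∈ Um)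
  nf : ∀ v : PV K, (v : PG K) ∈ PY K → (∀ y ∈ Um, y v = v) → v = 1

variable {Um : Subgroup (MulAut (PV K))}

theorem IsU.ne_one {r : K} (h0 : r ≠ 0) {x : MulAut (PV K)} (h : IsU r x) : x ≠ 1 := by
  rintro rfl
  have h1 := h.b (eC 1 (star_one K))
  rw [MulAut.one_apply] at h1
  simp only [cB_eC, cC_eC, mul_one, zero_add] at h1
  exact h0 h1.symm

theorem Opp.eq_one (H : Opp Um) {v : PV K} (h1 : Fx Um v) (h2 : cC v = 0) : v = 1 := H.nf v ⟨vr v, h2⟩ h1

theorem Opp.inj (H : Opp Um) {v w : PV K} (h1 : Fx Um v) (h2 : Fx Um w) (h3 : cC v = cC w) : v = w := by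
  have h4 := H.eq_one (h1.mul h2.inv) (by rw [cC_mul, cC_inv, h3, add_neg_cancel])
  exact mul_inv_eq_one.1 h4

theorem Opp.exists_sw (H : Opp Um) : ∃ m : MulAut (PV K), (∀ z, z ∈ Um ↔ m * z * m⁻¹ ∈ autInducedBy ⊤ (PV K)) ∧
    (∀ z, z ∈ autInducedBy ⊤ (PV K) ↔ m * z * m⁻¹ ∈ Um) := by
  obtain ⟨x, hx⟩ := exists_isU (1 : K)
  obtain ⟨y, -, h1, h2⟩ := H.sw x (mem_U_iff.2 ⟨1, hx⟩) (hx.ne_one one_ne_zero)
  exact ⟨_, h1, h2⟩

theorem Opp.surj (H : Opp Um) (h : HypK K p n) {c : K} (hc : star c = c) : ∃ v, Fx Um v ∧ cC v = c := by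
  obtain ⟨m, h1, h2⟩ := H.exists_sw
  have hfin := h.fin
  let f : {a : K // star a = a} → {a : K // star a = a} := fun a => ⟨cC (m (eA a.1 a.2)), star_cC _⟩
  have hf : ∀ a : {a : K // star a = a}, Fx Um (m (eA a.1 a.2)) := fun a =>
    (fx_map h2 _).1 ((fx_U h).2 ⟨rfl, rfl⟩)
  have hinj : Function.Injective f := by
    intro a b hab
    have h3 := H.inj (hf a) (hf b) (congrArg Subtype.val hab)
    have h4 := m.injective h3
    exact Subtype.ext (congrArg cA h4)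
  obtain ⟨a, ha⟩ := (Finite.injective_iff_surjective.1 hinj) ⟨c, hc⟩
  exact ⟨_, hf a, congrArg Subtype.val ha⟩

theorem Opp.fy_eq_one (H : Opp Um) (h : HypK K p n) {v : PV K} (hv : Fy Um v) (hb : cB v = 0) (hc : cC v = 0) : v = 1 := by
  obtain ⟨m, h1, h2⟩ := H.exists_sw
  obtain ⟨w, rfl⟩ := m.surjective v
  have h3 : Fy (autInducedBy ⊤ (PV K)) w := (fy_map h2 _).2 hv
  have h4 : Fx Um w := (fx_map h1 _).2 ((fx_U h).2 ⟨hb, hc⟩)
  rw [H.eq_one h4 ((fy_U h).1 h3), map_one]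

theorem Opp.exists_fy (H : Opp Um) (h : HypK K p n) (b : K) : ∃ w, Fy Um w ∧ cB w = b ∧ cC w = 0 := by
  obtain ⟨m, h1, h2⟩ := H.exists_sw
  obtain ⟨w0, hw0⟩ := m.surjective (eB b)
  obtain ⟨z, hz, hzc⟩ := H.surj h (star_cC w0)
  have h3 : Fy Um (m (z⁻¹ * w0)) := (fy_map h2 _).1 ((fy_U h).2 (by rw [cC_mul, cC_inv, hzc, neg_add_cancel]))
  have h4 := (fx_U h).1 ((fx_map h1 _).1 hz)
  refine ⟨_, h3, ?_, ?_⟩
  · rw [map_mul, map_inv, hw0, cB_mul, cB_inv, h4.1]; simp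
  · rw [map_mul, map_inv, hw0, cC_mul, cC_inv, h4.2]; simp

/-! ### The main theorem -/

theorem stV (hV1 : StV1.{u}) (hG : StGrp.{u}) : StV.{u} := by
  intro K _ _ p n hK Γ D hP
  obtain ⟨Um, hUm, hD, hsw, hgen, hnf, s0, hs1, hs2, α0, hα0, hT0⟩ := hV1 hK Γ D hP
  obtain ⟨-, -, -, hTP, hTh, -, -, -⟩ := hG hK
  have H : Opp Um := ⟨hsw, hnf⟩
  have tor : ∀ d ∈ D, ∃ s l τ, IsTorP d s l τ := fun d hd => hTP d (hP.D_le hd)
  have hDinv : ∀ d ∈ D, ∀ δ : MulAut (PV K), IsRP d δ → ∀ z, z ∈ Um ↔ δ * z * δ⁻¹ ∈ Um := by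
    intro d hd δ hδ z
    refine ⟨hD d hd δ hδ z, fun hz => ?_⟩
    have h1 := hD d⁻¹ (D.inv_mem hd) δ⁻¹ (IsRP.inv hδ) _ hz
    have h2 : δ⁻¹ * (δ * z * δ⁻¹) * δ⁻¹⁻¹ = z := by group
    rwa [h2] at h1
  obtain ⟨δ0, hδ0⟩ := isRP_tor hT0
  have hs1' : s0 - 1 ≠ 0 := sub_ne_zero.2 hs1
  -- `β = 0`
  have hB : ∀ v, Fx Um v → cB v = 0 := by
    intro v hv
    have h1 := (fx_map (hDinv α0 hα0 δ0 hδ0) v).1 hv
    have h2 := H.inj h1 hv (by rw [tor_c hT0 hδ0]; simp)
    have h3 := tor_b hT0 hδ0 v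
    rw [h2] at h3
    simp only [mul_one, RingEquiv.refl_apply] at h3
    have h4 : (s0 - 1) * cB v = 0 := by linear_combination -h3
    exact (mul_eq_zero.1 h4).resolve_left hs1'
  -- `ω = 0`
  have hW : ∀ b, Fy Um (eB b) := by
    intro b
    obtain ⟨w, hw, hwb, hwc⟩ := H.exists_fy hK ((s0 - 1)⁻¹ * b)
    have h1 := ((fy_map (hDinv α0 hα0 δ0 hδ0) w).1 hw).mul hw.inv
    have h2 : δ0 w * w⁻¹ = eB b := by
      apply vext
      · rw [cA_mul, cA_inv, tor_a hT0 hδ0, hs2]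
        simp
      · rw [cB_mul, cB_inv, tor_b hT0 hδ0, hwb]
        simp only [mul_one, RingEquiv.refl_apply, cB_eB]
        field_simp
        ring
      · rw [cC_mul, cC_inv, tor_c hT0 hδ0, hwc]
        simp
    rwa [h2] at h1
  -- `ψ`
  classical
  let g : K → K := fun c => if hc : star c = c then cA (H.surj hK hc).choose else 0
  have hg : ∀ v, Fx Um v → g (cC v) = cA v := by
    intro v hv
    have h1 : g (cC v) = cA (H.surj hK (star_cC v)).choose := dif_pos (star_cC v)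
    rw [h1, H.inj (H.surj hK (star_cC v)).choose_spec.1 hv (H.surj hK (star_cC v)).choose_spec.2]
  have hg' : ∀ (c : K) (hc : star c = c), ∃ v, Fx Um v ∧ cC v = c ∧ cA v = g c := by
    intro c hc
    obtain ⟨v, hv, rfl⟩ := H.surj hK hc
    exact ⟨v, hv, rfl, (hg v hv).symm⟩
  have hgs : ∀ c : K, star c = c → star (g c) = g c := by
    intro c hc
    obtain ⟨v, -, -, h1⟩ := hg' c hc
    rw [← h1, star_cA]
  have hga : ∀ x y : K, star x = x → star y = y → g (x + y) = g x + g y := by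
    intro x y hx hy
    obtain ⟨v, hv, hvx, h1⟩ := hg' x hx
    obtain ⟨w, hw, hwy, h2⟩ := hg' y hy
    rw [← h1, ← h2, ← cA_mul, ← hg _ (hv.mul hw), cC_mul, hvx, hwy]
  obtain ⟨θ, hθ⟩ := hTh (fun c => - g c) (fun x y hx hy => by rw [hga x y hx hy]; ring)
    (fun x hx => by rw [star_neg, hgs x hx])
  obtain ⟨t, ht⟩ : ∃ t : MulAut (PV K), IsRP θ t := exists_isRP fun x => by rw [hθ.r]
  have htA : ∀ v, cA (t v) = cA v - g (cC v) := by
    intro v
    show ((t v : PV K) : PG K).a = _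
    rw [ht, hθ.a, sub_eq_add_neg]; rfl
  have htB : ∀ v, cB (t v) = cB v := by
    intro v
    show ((t v : PV K) : PG K).b = _
    rw [ht, hθ.b]; rfl
  have htC : ∀ v, cC (t v) = cC v := by
    intro v
    show ((t v : PV K) : PG K).c = _
    rw [ht, hθ.c]; rfl
  -- `θ` commutes with `D`
  have hψ : ∀ d ∈ D, ∀ s l τ, IsTorP d s l τ → ∀ c : K, star c = c → g (l * τ c) = s * star s * l * τ (g c) := by
    intro d hd s l τ hT c hc
    obtain ⟨v, hv, h1, h2⟩ := hg' c hc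
    obtain ⟨δ, hδ⟩ := isRP_tor hT
    have h3 := hg _ ((fx_map (hDinv d hd δ hδ) v).1 hv)
    rw [tor_c hT hδ, tor_a hT hδ, h1, h2] at h3
    exact h3
  have hcomm : ∀ d ∈ D, θ * d = d * θ := by
    intro d hd
    obtain ⟨s, l, τ, hT⟩ := tor d hd
    refine MulEquiv.ext fun x => ?_
    rw [MulAut.mul_apply, MulAut.mul_apply]
    apply PG.ext
    · rw [hθ.r, hT.r, hT.r, hθ.r]
    · rw [hθ.a, hT.a, hT.a, hθ.a, hT.c, hψ d hd s l τ hT x.c x.hc, map_add, map_neg]
      ring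
    · rw [hθ.b, hT.b, hT.b, hθ.b]
    · rw [hθ.c, hT.c, hT.c, hθ.c]
  have hcommV : ∀ d ∈ D, ∀ δ : MulAut (PV K), IsRP d δ → t * δ = δ * t := by
    intro d hd δ hδ
    refine MulEquiv.ext fun v => Subtype.ext ?_
    rw [MulAut.mul_apply, MulAut.mul_apply, ht, hδ, hδ, ht]
    exact congrArg (fun f : MulAut (PG K) => f (v : PG K)) (hcomm d hd)
  -- `t` commutes with `U`
  have htU : ∀ x ∈ autInducedBy (⊤ : Subgroup (PG K)) (PV K), t * x = x * t := by
    intro x hx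
    obtain ⟨r, hr⟩ := mem_U_iff.1 hx
    apply aext
    · intro v
      rw [MulAut.mul_apply, MulAut.mul_apply, htA, hr.a, hr.a, hr.c, htA, htB, htC]
      ring
    · intro v
      rw [MulAut.mul_apply, MulAut.mul_apply, htB, hr.b, hr.b, htB, htC]
    · intro v
      rw [MulAut.mul_apply, MulAut.mul_apply, htC, hr.c, hr.c, htC]
  have htU' : ∀ x ∈ autInducedBy (⊤ : Subgroup (PG K)) (PV K), t * x * t⁻¹ = x := by
    intro x hx
    rw [htU x hx, mul_inv_cancel_right]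
  have htUm : ∀ z, z ∈ autInducedBy (⊤ : Subgroup (PG K)) (PV K) ↔ t * z * t⁻¹ ∈ autInducedBy (⊤ : Subgroup (PG K)) (PV K) := by
    intro z
    constructor
    · intro hz
      rwa [htU' z hz]
    · intro hz
      have h1 := htU' _ hz
      have h2 : t * z * t⁻¹ = z := by
        have h3 : t⁻¹ * (t * (t * z * t⁻¹) * t⁻¹) * t = t⁻¹ * (t * z * t⁻¹) * t := by rw [h1]
        have h4 : t⁻¹ * (t * (t * z * t⁻¹) * t⁻¹) * t = t * z * t⁻¹ := by group
        have h5 : t⁻¹ * (t * z * t⁻¹) * t = z := by group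
        rw [h4, h5] at h3
        exact h3
      rwa [h2] at hz
  -- the conjugated objects
  set Γ' : Subgroup (MulAut (PV K)) := Γ.map (MulAut.conj t).toMonoidHom with hΓ'
  set Um' : Subgroup (MulAut (PV K)) := Um.map (MulAut.conj t).toMonoidHom with hUm'
  have memΓ : ∀ z, z ∈ Γ ↔ t * z * t⁻¹ ∈ Γ' := by
    intro z
    constructor
    · intro hz
      exact ⟨z, hz, rfl⟩
    · rintro ⟨w, hw, hwz⟩
      have h1 : t * w * t⁻¹ = t * z * t⁻¹ := hwz
      have h2 : w = z := by simpa using h1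
      rwa [← h2]
  have memU : ∀ z, z ∈ Um ↔ t * z * t⁻¹ ∈ Um' := by
    intro z
    constructor
    · intro hz
      exact ⟨z, hz, rfl⟩
    · rintro ⟨w, hw, hwz⟩
      have h1 : t * w * t⁻¹ = t * z * t⁻¹ := hwz
      have h2 : w = z := by simpa using h1
      rwa [← h2]
  have hZ' : ∀ (c : K) (hc : star c = c), Fx Um' (eC c hc) := by
    intro c hc
    obtain ⟨v, hv, h1, h2⟩ := hg' c hc
    have h3 : t v = eC c hc := by
      apply vext
      · rw [htA, h2, h1]; simp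
      · rw [htB, hB v hv]; simp
      · rw [htC, h1]; simp
    rw [← h3]
    exact (fx_map memU _).1 hv
  have hW' : ∀ b : K, Fy Um' (eB b) := by
    intro b
    have h3 : t (eB b) = eB b := by
      apply vext
      · have hg0 : g 0 = 0 := by
          have := hga 0 0 (star_zero K) (star_zero K)
          rw [add_zero] at this
          linear_combination -this
        rw [htA]; simp [hg0]
      · rw [htB]
      · rw [htC]
    rw [← h3]
    exact (fy_map memU _).1 (hW b)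
  have hFx' : ∀ v, Fx Um' v → cA v = 0 ∧ cB v = 0 := by
    intro v hv
    obtain ⟨w, rfl⟩ := t.surjective v
    have h1 := (fx_map memU _).2 hv
    rw [htA, htB, hg w h1, hB w h1, sub_self]
    exact ⟨rfl, rfl⟩
  have hFy' : ∀ v, Fy Um' v → cA v = 0 := by
    intro v hv
    obtain ⟨w, rfl⟩ := t.surjective v
    have h1 := (fy_map memU _).2 hv
    obtain ⟨z, hz, hz1, hz2⟩ := hg' _ (star_cC w)
    have h2 := H.fy_eq_one hK ((h1.mul (hW (cB w)).inv).mul hz.fy.inv) (by simp [hB z hz]) (by simp [hz1])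
    have h3 := congrArg cA h2
    simp only [cA_mul, cA_inv, cA_eB, cA_one, hz2] at h3
    rw [htA]
    linear_combination h3
  -- the elements `n_r`
  have hN : ∀ r : K, r ≠ 0 → ∃ m ∈ Γ', IsN r m ∧ (∀ z, z ∈ autInducedBy ⊤ (PV K) ↔ m * z * m⁻¹ ∈ Um') := by
    intro r h0
    obtain ⟨x, hx⟩ := exists_isU r
    have hxU := mem_U_iff.2 ⟨r, hx⟩
    obtain ⟨y, hy, h1, h2⟩ := hsw x hxU (hx.ne_one h0)
    have e1 : x * (t * y * t⁻¹) * x = t * (x * y * x) * t⁻¹ := by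
      have h3 := htU x hxU
      have h4 : t⁻¹ * x = x * t⁻¹ := by
        have : t⁻¹ * (t * x) * t⁻¹ = t⁻¹ * (x * t) * t⁻¹ := by rw [h3]
        have h5 : t⁻¹ * (t * x) * t⁻¹ = x * t⁻¹ := by group
        have h6 : t⁻¹ * (x * t) * t⁻¹ = t⁻¹ * x := by group
        rw [h5, h6] at this
        exact this.symm
      calc x * (t * y * t⁻¹) * x = (x * t) * y * (t⁻¹ * x) := by group
        _ = (t * x) * y * (x * t⁻¹) := by rw [h4, h3]
        _ = t * (x * y * x) * t⁻¹ := by group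
    have hy' := (memU y).1 hy
    have k1 : ∀ z, z ∈ Um' ↔ (x * (t * y * t⁻¹) * x) * z * (x * (t * y * t⁻¹) * x)⁻¹ ∈ autInducedBy ⊤ (PV K) := by
      intro z
      have e2 : z = t * (t⁻¹ * z * t) * t⁻¹ := by group
      have e3 : t * (x * y * x) * t⁻¹ * z * (t * (x * y * x) * t⁻¹)⁻¹ =
          t * ((x * y * x) * (t⁻¹ * z * t) * (x * y * x)⁻¹) * t⁻¹ := by group
      rw [e1, e3, ← htUm, ← h1, memU, ← e2]
    have k2 : ∀ z, z ∈ autInducedBy ⊤ (PV K) ↔ (x * (t * y * t⁻¹) * x) * z * (x * (t * y * t⁻¹) * x)⁻¹ ∈ Um' := by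
      intro z
      have e2 : z = t * (t⁻¹ * z * t) * t⁻¹ := by group
      have e3 : t * (x * y * x) * t⁻¹ * z * (t * (x * y * x) * t⁻¹)⁻¹ =
          t * ((x * y * x) * (t⁻¹ * z * t) * (x * y * x)⁻¹) * t⁻¹ := by group
      have e4 := htUm (t⁻¹ * z * t)
      rw [← e2] at e4
      rw [e1, e3, ← memU, ← h2]
      exact e4.symm
    have hL := isL_of_swap hK hZ' hW' hFx' hFy' h0 hx hy' k1 k2
    refine ⟨_, ?_, isN_of h0 hx hL, k2⟩
    rw [e1, ← memΓ]
    exact Γ.mul_mem (Γ.mul_mem (hP.indu hxU) (hUm hy)) (hP.indu hxU)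
  obtain ⟨m1, hm1, hm1N, hm1U⟩ := hN 1 one_ne_zero
  have hUΓ' : autInducedBy (⊤ : Subgroup (PG K)) (PV K) ≤ Γ' := by
    intro x hx
    have h1 := (memΓ x).1 (hP.indu hx)
    rwa [htU' x hx] at h1
  -- elements of `Γ'` normalizing `U`
  have hnorm : ∀ γ ∈ Γ', NormAut (⊤ : Subgroup (PG K)) γ → ∃ x ∈ autInducedBy (⊤ : Subgroup (PG K)) (PV K), ∃ d ∈ D,
      ∃ δ : MulAut (PV K), IsRP d δ ∧ γ = x * δ := by
    intro γ hγ hn
    obtain ⟨γ0, hγ0, rfl⟩ := hγ
    have hn0 : NormAut (⊤ : Subgroup (PG K)) γ0 := by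
      intro x hx
      have h1 := hn x hx
      have e3 : (MulAut.conj t).toMonoidHom γ0 * x * ((MulAut.conj t).toMonoidHom γ0)⁻¹ = t * (γ0 * x * γ0⁻¹) * t⁻¹ := by
        have e4 : (MulAut.conj t).toMonoidHom γ0 = t * γ0 * t⁻¹ := rfl
        rw [e4]
        have e5 : t * γ0 * t⁻¹ * x * (t * γ0 * t⁻¹)⁻¹ = t * γ0 * (t⁻¹ * x * t) * γ0⁻¹ * t⁻¹ := by group
        have e6 : t⁻¹ * x * t = x := by
          have : t⁻¹ * (t * x * t⁻¹) * t = x := by group
          rwa [htU' x hx] at this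
        rw [e5, e6]
        group
      rw [e3, ← htUm] at h1
      exact h1
    obtain ⟨x, d, hd, hxd⟩ := hP.norm γ0 hγ0 hn0
    obtain ⟨s, l, τ, hT⟩ := tor d hd
    obtain ⟨δ, hδ⟩ := isRP_tor hT
    obtain ⟨cx, hcx⟩ := exists_isU x.r
    have h1 : γ0 = cx * δ := by
      refine MulEquiv.ext fun v => Subtype.ext ?_
      rw [hxd, MulAut.mul_apply, conj_of_isU hcx, hδ]
    have hcxU := mem_U_iff.2 ⟨_, hcx⟩
    refine ⟨cx, hcxU, d, hd, δ, hδ, ?_⟩
    show t * γ0 * t⁻¹ = _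
    rw [h1, ← mul_assoc, htU cx hcxU, mul_assoc cx t δ, hcommV d hd δ hδ]
    group
  constructor
  · -- the torus
    intro t0 ht0 α hα
    obtain ⟨m, hm, hmN, -⟩ := hN t0 ht0
    have ht0s : star t0 ≠ 0 := by rwa [Ne, star_eq_zero]
    have hH := isH_of hmN hm1N
    obtain ⟨x, hx, d, hd, δ, hδ, he⟩ := hnorm _ (Γ'.mul_mem hm hm1) (normAut_of_isH ht0 hH)
    obtain ⟨s, l, τ, hT⟩ := tor d hd
    obtain ⟨ρ, hρ⟩ := mem_U_iff.1 hx
    have kC : ∀ v, (t0 * star t0)⁻¹ * cC v = l * τ (cC v) := by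
      intro v
      rw [← hH.c, he, MulAut.mul_apply, hρ.c, tor_c hT hδ]
    have kB : ∀ v, t0 * (star t0)⁻¹ * cB v = s * l * τ (cB v) + ρ * (l * τ (cC v)) := by
      intro v
      rw [← hH.b, he, MulAut.mul_apply, hρ.b, tor_b hT hδ, tor_c hT hδ]
    have hl : l = (t0 * star t0)⁻¹ := by
      have h1 := kC (eC 1 (star_one K))
      simp only [cC_eC, mul_one, map_one] at h1
      exact h1.symm
    have hρ0 : ρ = 0 := by
      have h1 := kB (eC 1 (star_one K))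
      simp only [cC_eC, cB_eC, mul_one, map_one, map_zero, mul_zero, zero_add] at h1
      exact (mul_eq_zero.1 h1.symm).resolve_right hT.nl
    have hsl : s * l = t0 * (star t0)⁻¹ := by
      have h1 := kB (eB 1)
      simp only [cC_eB, cB_eB, mul_one, map_one, map_zero, mul_zero, add_zero] at h1
      exact h1.symm
    have hτ : ∀ b, τ b = b := by
      intro b
      have h1 := kB (eB b)
      simp only [cC_eB, cB_eB, map_zero, mul_zero, add_zero] at h1
      rw [hsl] at h1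
      exact (mul_left_cancel₀ (mul_ne_zero ht0 (inv_ne_zero ht0s)) h1).symm
    have hs : s = t0 ^ 2 := by
      have h1 : s = s * l * (t0 * star t0) := by
        rw [hl, mul_assoc, inv_mul_cancel₀ (mul_ne_zero ht0 ht0s), mul_one]
      rw [h1, hsl]
      field_simp
    have hαd : α = d := by
      refine MulEquiv.ext fun x => ?_
      apply PG.ext
      · rw [hα.r, hT.r, hs, hτ]; simp
      · rw [hα.a, hT.a, hs, hl, hτ]; simp
      · rw [hα.b, hT.b, hs, hl, hτ]; simp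
      · rw [hα.c, hT.c, hl, hτ]; simp
    rwa [hαd]
  · refine ⟨fun c => - g c, θ, t, hθ, hcomm, ht, ?_⟩
    -- `Λ ≤ Γ'`
    have hm1W := isWV_of hm1N
    have hLam : LamV K ≤ Γ' := by
      refine sup_le hUΓ' ?_
      rw [Subgroup.closure_le]
      intro w hw
      rw [IsWV.unique hw hm1W]
      exact hm1
    have hm1L : m1 ∈ LamV K := (le_sup_right : _ ≤ LamV K) (Subgroup.subset_closure hm1W)
    have hUL : autInducedBy (⊤ : Subgroup (PG K)) (PV K) ≤ LamV K := le_sup_left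
    have hUmL : Um' ≤ LamV K := by
      intro z hz
      have h1 : m1⁻¹ * z * m1 ∈ autInducedBy (⊤ : Subgroup (PG K)) (PV K) := by
        rw [hm1U]
        have : m1 * (m1⁻¹ * z * m1) * m1⁻¹ = z := by group
        rwa [this]
      have h2 : z = m1 * (m1⁻¹ * z * m1) * m1⁻¹ := by group
      rw [h2]
      exact (LamV K).mul_mem ((LamV K).mul_mem hm1L (hUL h1)) ((LamV K).inv_mem hm1L)
    intro γ
    constructor
    · intro hγ
      obtain ⟨γ0, hγ0, rfl⟩ := hγ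
      obtain ⟨w, hw, hwn⟩ := hgen γ0 hγ0
      -- transport
      have hw' : t * w * t⁻¹ ∈ LamV K := by
        have h1 : autInducedBy (⊤ : Subgroup (PG K)) (PV K) ⊔ Um ≤
            (LamV K).comap (MulAut.conj t).toMonoidHom := by
          refine sup_le ?_ ?_
          · intro x hx
            show t * x * t⁻¹ ∈ LamV K
            rw [htU' x hx]
            exact hUL hx
          · intro x hx
            exact hUmL ((memU x).1 hx)
        exact h1 hw
      have hγ' : t * γ0 * t⁻¹ ∈ Γ' := (memΓ _).1 hγ0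
      have hn : NormAut (⊤ : Subgroup (PG K)) ((t * w * t⁻¹)⁻¹ * (t * γ0 * t⁻¹)) := by
        intro x hx
        have e1 : (t * w * t⁻¹)⁻¹ * (t * γ0 * t⁻¹) * x * ((t * w * t⁻¹)⁻¹ * (t * γ0 * t⁻¹))⁻¹ =
            t * ((w⁻¹ * γ0) * (t⁻¹ * x * t) * (w⁻¹ * γ0)⁻¹) * t⁻¹ := by group
        have e6 : t⁻¹ * x * t = x := by
          have : t⁻¹ * (t * x * t⁻¹) * t = x := by group
          rwa [htU' x hx] at this
        rw [e1, e6, ← htUm]
        exact hwn x hx
      obtain ⟨x, hx, d, hd, δ, hδ, he⟩ := hnorm _ (Γ'.mul_mem (Γ'.inv_mem (hLam hw')) hγ') hn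
      refine ⟨(t * w * t⁻¹) * x, (LamV K).mul_mem hw' (hUL hx), d, hd, δ, hδ, ?_⟩
      show t * γ0 * t⁻¹ = _
      rw [mul_assoc (t * w * t⁻¹) x δ, ← he, mul_inv_cancel_left]
    · rintro ⟨w, hw, d, hd, δ, hδ, rfl⟩
      refine Γ'.mul_mem (hLam hw) ?_
      have h1 := (memΓ δ).1 (hP.D_res d hd δ hδ)
      have h2 : t * δ * t⁻¹ = δ := by rw [hcommV d hd δ hδ, mul_inv_cancel_right]
      rwa [h2] at h1

end Cfsg.Agent.H569.P4
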